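import Groth.Prelude.Def_FEt
import Groth.Agent.Etbase.Rigidity
import Mathlib.AlgebraicGeometry.AlgClosed.Basic
import Mathlib.AlgebraicGeometry.Sites.Fpqc

/-!
# Rational points, finite etale covers and descent of morphisms
-/

set_option autoImplicit false
set_option backward.isDefEq.respectTransparency false
set_option backward.isDefEq.respectTransparency.types false
set_option backward.defeqAttrib.useBackward true

open CategoryTheory CategoryTheory.Limits AlgebraicGeometry

universe u

namespace Groth.Agent.Pi1.H399.Points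

/-- Rational points lift along finite surjective morphisms over an algebraically closed field. -/
theorem exists_point {k : Type u} [Field k] [IsAlgClosed k] {Z B : Scheme.{u}} (g : Z ⟶ B)
    [IsFinite g] [Surjective g] (y : Spec (CommRingCat.of k) ⟶ B) :
    ∃ x : Spec (CommRingCat.of k) ⟶ Z, x ≫ g = y := by
  have h1 : Surjective (pullback.snd g y) := inferInstance
  have : Nonempty ↥(pullback g y) :=
    ⟨(h1.surj (IsLocalRing.closedPoint k)).choose⟩
  have : CompactSpace ↥(pullback g y) := QuasiCompact.compactSpace_of_compactSpace (pullback.snd g y)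
  obtain ⟨x, -, hx⟩ := IsClosed.exists_closed_singleton (S := (Set.univ : Set ↥(pullback g y)))
    isClosed_univ Set.univ_nonempty
  refine ⟨pointOfClosedPoint (pullback.snd g y) x hx ≫ pullback.fst g y, ?_⟩
  rw [Category.assoc, pullback.condition, pointOfClosedPoint_comp_assoc]

/-- A finite etale morphism from a nonempty scheme to a connected scheme is surjective. -/
theorem surjective_of_prop {X Y : Scheme.{u}} (g : X ⟶ Y) (hg : FEt.prop g) [Nonempty X]
    [ConnectedSpace Y] : Surjective g := by
  have h1 : IsFinite g := hg.1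
  have h2 : Etale g := hg.2
  have hc : IsClopen (Set.range g) :=
    ⟨g.isClosedMap.isClosed_range, g.isOpenMap.isOpen_range⟩
  exact ⟨Set.range_eq_univ.1 (hc.eq_univ (Set.range_nonempty g))⟩

/-- Two maps which agree on a field-valued point agree on the residue field. -/
theorem fromSpecResidueField_eq {k : Type u} [Field k] {Y X : Scheme.{u}}
    (c : Spec (CommRingCat.of k) ⟶ Y) (f g : Y ⟶ X) (h : c ≫ f = c ≫ g) :
    Y.fromSpecResidueField (c (IsLocalRing.closedPoint k)) ≫ f =
      Y.fromSpecResidueField (c (IsLocalRing.closedPoint k)) ≫ g := by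
  have h1 := Scheme.descResidueField_stalkClosedPointTo_fromSpecResidueField k Y c
  rw [← h1] at h
  simp only [Category.assoc] at h
  generalize Scheme.descResidueField (Scheme.stalkClosedPointTo c) = φ at h
  have hfl : Flat (Spec.map φ) := by
    have : Subsingleton ↥(Spec (Y.residueField (c (IsLocalRing.closedPoint k)))) :=
      inferInstanceAs (Subsingleton (PrimeSpectrum _))
    infer_instance
  have hsu : Surjective (Spec.map φ) := by
    have : Subsingleton ↥(Spec (Y.residueField (c (IsLocalRing.closedPoint k)))) :=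
      inferInstanceAs (Subsingleton (PrimeSpectrum _))
    exact ⟨fun y => ⟨IsLocalRing.closedPoint k, Subsingleton.elim _ _⟩⟩
  have hee : EffectiveEpi (Spec.map φ) := inferInstance
  exact (cancel_epi (Spec.map φ)).1 h

/-- Let `f : Z ⟶ A` be finite etale over a connected scheme `A` with a rational point `e`, and
`F : Z ⟶ Z'` a map to a finite etale (or just separated unramified) scheme `f' : Z' ⟶ A'` with
`F ≫ f' = f ≫ m`. If `F` is constant on the rational points over `e`, then `F` descends to `A`. -/
theorem exists_desc {k : Type u} [Field k] [IsAlgClosed k] {Z A Z' A' : Scheme.{u}}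
    (f : Z ⟶ A) (hf : FEt.prop f) [Nonempty Z] [ConnectedSpace A]
    (e : Spec (CommRingCat.of k) ⟶ A) (f' : Z' ⟶ A') (hf' : FEt.prop f') (F : Z ⟶ Z')
    (m : A ⟶ A') (hF : F ≫ f' = f ≫ m)
    (hconst : ∀ x y : Spec (CommRingCat.of k) ⟶ Z, x ≫ f = e → y ≫ f = e → x ≫ F = y ≫ F) :
    ∃ ψ : A ⟶ Z', f ≫ ψ = F ∧ ψ ≫ f' = m := by
  have h1 : IsFinite f := hf.1
  have h2 : Etale f := hf.2
  have h3 : Surjective f := surjective_of_prop f hf
  have h1' : IsFinite f' := hf'.1
  have h2' : Etale f' := hf'.2
  have hq : pullback.fst f f ≫ F = pullback.snd f f ≫ F := by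
    refine Groth.Agent.Etbase.Rigidity.eq_of_agree f' _ _ ?_
      {y | ∃ c : Spec (CommRingCat.of k) ⟶ pullback f f, c ≫ pullback.fst f f ≫ f = e ∧
        c (IsLocalRing.closedPoint k) = y} ?_ ?_
    · rw [Category.assoc, Category.assoc, hF, pullback.condition_assoc]
    · intro U hU hTU
      by_contra hne
      let V : (pullback f f).Opens := ⟨Uᶜ, hU.isClosed.isOpen_compl⟩
      have hVne : Nonempty V := by
        obtain ⟨x, hx⟩ := (Set.ne_univ_iff_exists_notMem U).1 hne
        exact ⟨⟨x, hx⟩⟩
      have hcl : IsClosedImmersion V.ι := by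
        refine IsClosedImmersion.of_isPreimmersion _ ?_
        rw [Scheme.Opens.range_ι]
        exact hU.isOpen.isClosed_compl
      have hV : FEt.prop (V.ι ≫ pullback.fst f f ≫ f) := by
        have hVι : FEt.prop V.ι := ⟨inferInstance, inferInstance⟩
        exact FEt.prop.comp_mem _ _ hVι (FEt.prop.comp_mem _ _ (FEt.prop.pullback_fst _ _ hf) hf)
      have : IsFinite (V.ι ≫ pullback.fst f f ≫ f) := hV.1
      have := surjective_of_prop _ hV
      obtain ⟨c, hc⟩ := exists_point (V.ι ≫ pullback.fst f f ≫ f) e
      have h4 : (c ≫ V.ι) (IsLocalRing.closedPoint k) ∈ U := hTU ⟨c ≫ V.ι, by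
        rw [Category.assoc, hc], rfl⟩
      have h5 : V.ι (c (IsLocalRing.closedPoint k)) ∈ U := by
        rw [← Scheme.Hom.comp_apply]; exact h4
      exact (c (IsLocalRing.closedPoint k)).2 h5
    · rintro _ ⟨c, hc, rfl⟩
      refine fromSpecResidueField_eq c _ _ ?_
      rw [← Category.assoc, ← Category.assoc]
      refine hconst _ _ (by rw [Category.assoc, hc]) ?_
      rw [Category.assoc, ← pullback.condition, hc]
  have hepi : EffectiveEpi f := inferInstance
  let ψ : A ⟶ Z' := EffectiveEpi.desc f F fun {W} g₁ g₂ h => by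
    have := congr(pullback.lift g₁ g₂ h ≫ $hq)
    rwa [pullback.lift_fst_assoc, pullback.lift_snd_assoc] at this
  have hψ : f ≫ ψ = F := EffectiveEpi.fac _ _ _
  refine ⟨ψ, hψ, ?_⟩
  rw [← cancel_epi f, ← Category.assoc, hψ, hF]

end Groth.Agent.Pi1.H399.Points
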