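import Mathlib.CategoryTheory.Monoidal.Cartesian.Grp
import Mathlib.GroupTheory.Perm.Basic
import Mathlib.GroupTheory.OrderOfElement
import Mathlib.Data.Fintype.Perm

/-!
# Powers along a lifted multiplication

Let `A` be a group object of a cartesian monoidal category, `f : Z ⟶ A`, and `mm : Z ⊗ Z ⟶ Z` a lift
of the multiplication of `A`.  We define the lifted power maps `Z ⟶ Z` and show that some of them
kills the kernel points as soon as these are finite in number and the translations are onto.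
-/

set_option autoImplicit false

open CategoryTheory MonoidalCategory CartesianMonoidalCategory MonObj GrpObj

universe v u

namespace Groth.Agent.Pi1.H399.PowLift

variable {C : Type u} [Category.{v} C] [CartesianMonoidalCategory C]

/-- The iterated power for a (not necessarily associative) multiplication. -/
def pw {Z : C} (mm : Z ⊗ Z ⟶ Z) (ζ : 𝟙_ C ⟶ Z) : ℕ → (Z ⟶ Z)
  | 0 => toUnit Z ≫ ζ
  | n + 1 => lift (𝟙 Z) (pw mm ζ n) ≫ mm

/-- The translation by `κ`. -/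
def tr {Z : C} (mm : Z ⊗ Z ⟶ Z) (κ : 𝟙_ C ⟶ Z) : Z ⟶ Z :=
  lift (toUnit Z ≫ κ) (𝟙 Z) ≫ mm

variable {A Z : C} [GrpObj A] (f : Z ⟶ A) (mm : Z ⊗ Z ⟶ Z) (hmm : mm ≫ f = (f ⊗ₘ f) ≫ μ[A])
  (ζ : 𝟙_ C ⟶ Z) (hζ : ζ ≫ f = η[A])

include hmm hζ in
theorem pw_comp (n : ℕ) : pw mm ζ n ≫ f = f ≫ (𝟙 A) ^ n := by
  induction n with
  | zero =>
    rw [pow_zero, pw, Category.assoc, hζ]
    simp [Hom.one_def]
  | succ n ih =>
    rw [pow_succ', pw, Category.assoc, hmm, lift_map_assoc, Category.id_comp, ih, Hom.mul_def,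
      comp_lift_assoc, Category.comp_id]

include hmm in
theorem tr_comp (κ : 𝟙_ C ⟶ Z) (hκ : κ ≫ f = η[A]) : tr mm κ ≫ f = f := by
  rw [tr, Category.assoc, hmm, lift_map_assoc, Category.id_comp, Category.assoc, hκ]
  have h := Hom.mul_def (1 : Z ⟶ A) f
  rw [_root_.one_mul] at h
  rw [Hom.one_def] at h
  exact h.symm

theorem point_pw (κ : 𝟙_ C ⟶ Z) (n : ℕ) :
    κ ≫ pw mm ζ n = (fun x => x ≫ tr mm κ)^[n] ζ := by
  induction n with
  | zero =>
    have h : κ ≫ toUnit Z = 𝟙 _ := toUnit_unique _ _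
    rw [pw, reassoc_of% h]
    rfl
  | succ n ih =>
    rw [Function.iterate_succ_apply', ← ih, pw, tr, comp_lift_assoc, comp_lift_assoc]
    have h : (κ ≫ pw mm ζ n) ≫ toUnit Z ≫ κ = κ := by
      rw [← Category.assoc, toUnit_unique ((κ ≫ pw mm ζ n) ≫ toUnit Z) (𝟙 _), Category.id_comp]
    rw [h, Category.comp_id, Category.comp_id]

include hmm hζ in
/-- A uniform power kills all the kernel points. -/
theorem exists_kill (hfin : Finite {κ : 𝟙_ C ⟶ Z // κ ≫ f = η[A]})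
    (hsurj : ∀ κ : 𝟙_ C ⟶ Z, κ ≫ f = η[A] → ∀ y : 𝟙_ C ⟶ Z, y ≫ f = η[A] →
      ∃ x : 𝟙_ C ⟶ Z, x ≫ tr mm κ = y) :
    ∃ d : ℕ, 1 ≤ d ∧ ∀ κ : 𝟙_ C ⟶ Z, κ ≫ f = η[A] → κ ≫ pw mm ζ d = ζ := by
  classical
  let K := {κ : 𝟙_ C ⟶ Z // κ ≫ f = η[A]}
  refine ⟨Nat.card (Equiv.Perm K), Nat.card_pos, fun κ hκ => ?_⟩
  let φ : K → K := fun x => ⟨x.1 ≫ tr mm κ, by rw [Category.assoc, tr_comp f mm hmm κ hκ, x.2]⟩
  have hφ : Function.Surjective φ := by
    rintro ⟨y, hy⟩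
    obtain ⟨x, hx⟩ := hsurj κ hκ y hy
    refine ⟨⟨x, ?_⟩, Subtype.ext hx⟩
    rw [← tr_comp f mm hmm κ hκ, ← Category.assoc, hx, hy]
  let e : Equiv.Perm K := Equiv.ofBijective φ (Finite.injective_iff_surjective.2 hφ |> fun h => ⟨h, hφ⟩)
  have h1 : e ^ Nat.card (Equiv.Perm K) = 1 := pow_card_eq_one'
  have h2 : ∀ n : ℕ, ((e ^ n) (⟨ζ, hζ⟩ : K)).1 = (fun x => x ≫ tr mm κ)^[n] ζ := by
    intro n
    induction n with
    | zero => rfl
    | succ n ih =>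
      rw [pow_succ', Equiv.Perm.mul_apply, Function.iterate_succ_apply', ← ih]
      rfl
  rw [point_pw, ← h2, h1]
  rfl

end Groth.Agent.Pi1.H399.PowLift
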