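import Groth.Prelude.Def_FEt
import Groth.Agent.Pi1A.SteinCover
import Groth.Agent.Sga3C.LocConn
import Mathlib.AlgebraicGeometry.AlgClosed.Basic

/-!
# Lifting a map from a product to a finite etale cover

Over an algebraically closed field, let `P` be proper, geometrically connected and reduced, `Q`
connected and locally of finite type, and `f : Z ⟶ A` finite etale.  A map `h : P × Q ⟶ A` lifts
to `Z` as soon as its restrictions to `P × {q₀}` and `{p₀} × Q` lift compatibly.
-/

set_option autoImplicit false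
set_option backward.isDefEq.respectTransparency false
set_option backward.isDefEq.respectTransparency.types false
set_option backward.defeqAttrib.useBackward true

open CategoryTheory CategoryTheory.Limits AlgebraicGeometry

universe u

namespace Groth.Agent.Pi1.H399.ProdLift

/-- The statement of exactness in the middle of the homotopy sequence (S0265). -/
def HMid : Prop := ∀ {X S : Scheme.{u}} (f : X ⟶ S) [IsProper f] [Flat f]
    [LocallyOfFinitePresentation f] [ConnectedSpace S]
    (_ : ∀ (Ω : Type u) [Field Ω] [IsAlgClosed Ω] (s : Spec (CommRingCat.of Ω) ⟶ S),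
      ConnectedSpace ↥(pullback f s) ∧ IsReduced (pullback f s))
    (Y : FEt.Cat X) [ConnectedSpace Y.left] (Ω : Type u) [Field Ω] [IsAlgClosed Ω]
    (s : Spec (CommRingCat.of Ω) ⟶ S) (σ : pullback f s ⟶ Y.left)
    (_ : σ ≫ Y.hom = pullback.fst f s), (FEt.restrict f).essImage Y

/-- A connected component, as an open subscheme of a locally Noetherian scheme, is a connected
finite etale scheme. -/
theorem exists_component {V X : Scheme.{u}} [IsLocallyNoetherian V] (v : V ⟶ X)
    (hv : FEt.prop v) (x : V) :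
    ∃ (W : V.Opens), x ∈ W ∧ FEt.prop (W.ι ≫ v) ∧ ConnectedSpace ↥(W : Scheme.{u}) ∧
      ∀ {T : Scheme.{u}} [ConnectedSpace T] (g : T ⟶ V) (t : T), g t = x →
        ∃ g' : T ⟶ W, g' ≫ W.ι = g := by
  have := Groth.Agent.Sga3C.LocConn.locallyConnectedSpace_of_isLocallyNoetherian V
  let W : V.Opens := ⟨connectedComponent x, isOpen_connectedComponent⟩
  have hcl : IsClosedImmersion W.ι := by
    refine IsClosedImmersion.of_isPreimmersion _ ?_
    rw [Scheme.Opens.range_ι]
    exact isClosed_connectedComponent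
  have hW : FEt.prop W.ι := ⟨inferInstance, inferInstance⟩
  refine ⟨W, mem_connectedComponent, FEt.prop.comp_mem _ _ hW hv, ?_, ?_⟩
  · exact Subtype.connectedSpace isConnected_connectedComponent
  · intro T _ g t ht
    refine ⟨IsOpenImmersion.lift W.ι g ?_, IsOpenImmersion.lift_fac _ _ _⟩
    rw [Scheme.Opens.range_ι]
    have h1 : _root_.IsPreconnected (Set.range g) := isPreconnected_range g.continuous
    exact h1.subset_connectedComponent ⟨t, ht⟩

/-- A map `h` from a product `P × Q` (with `P` proper, geometrically connected and reduced, `Q`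
connected and locally of finite type over an algebraically closed field) lifts to a finite etale
cover as soon as its restrictions to `P × q₀` and `p₀ × Q` lift compatibly. -/
theorem exists_lift (hmid : HMid.{u}) {k : Type u} [Field k] [IsAlgClosed k]
    {P Q A Z : Scheme.{u}} (pP : P ⟶ Spec (CommRingCat.of k)) (pQ : Q ⟶ Spec (CommRingCat.of k))
    [IsProper pP] [GeometricallyConnected pP] [GeometricallyReduced pP]
    [LocallyOfFiniteType pQ] [ConnectedSpace Q]
    (f : Z ⟶ A) (hf : FEt.prop f) (h : pullback pP pQ ⟶ A)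
    (p₀ : Spec (CommRingCat.of k) ⟶ P) (q₀ : Spec (CommRingCat.of k) ⟶ Q)
    (hp₀ : p₀ ≫ pP = 𝟙 _) (hq₀ : q₀ ≫ pQ = 𝟙 _)
    (iP : P ⟶ pullback pP pQ) (hiP1 : iP ≫ pullback.fst pP pQ = 𝟙 P)
    (hiP2 : iP ≫ pullback.snd pP pQ = pP ≫ q₀)
    (iQ : Q ⟶ pullback pP pQ) (hiQ1 : iQ ≫ pullback.fst pP pQ = pQ ≫ p₀)
    (hiQ2 : iQ ≫ pullback.snd pP pQ = 𝟙 Q)
    (a : P ⟶ Z) (ha : a ≫ f = iP ≫ h) (b : Q ⟶ Z) (hb : b ≫ f = iQ ≫ h)
    (hab : p₀ ≫ a = q₀ ≫ b) :
    ∃ μ : pullback pP pQ ⟶ Z, μ ≫ f = h := by
  let v : pullback f h ⟶ pullback pP pQ := pullback.snd f h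
  have hv : FEt.prop v := FEt.prop.pullback_snd f h hf
  have : IsFinite v := hv.1
  have : Etale v := hv.2
  have hN1 : IsLocallyNoetherian (pullback f h) :=
    LocallyOfFiniteType.isLocallyNoetherian (v ≫ pullback.snd pP pQ ≫ pQ)
  -- the two partial sections
  obtain ⟨sa, hsa1, hsa2⟩ : ∃ sa : P ⟶ pullback f h, sa ≫ pullback.fst f h = a ∧ sa ≫ v = iP :=
    ⟨pullback.lift a iP ha, pullback.lift_fst _ _ _, pullback.lift_snd _ _ _⟩
  obtain ⟨sb, hsb1, hsb2⟩ : ∃ sb : Q ⟶ pullback f h, sb ≫ pullback.fst f h = b ∧ sb ≫ v = iQ :=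
    ⟨pullback.lift b iQ hb, pullback.lift_fst _ _ _, pullback.lift_snd _ _ _⟩
  have hsab : p₀ ≫ sa = q₀ ≫ sb := by
    apply pullback.hom_ext
    · rw [Category.assoc, Category.assoc, hsa1, hsb1, hab]
    · change (p₀ ≫ sa) ≫ v = (q₀ ≫ sb) ≫ v
      rw [Category.assoc, Category.assoc, hsa2, hsb2]
      apply pullback.hom_ext
      · rw [Category.assoc, Category.assoc, hiP1, hiQ1, Category.comp_id, reassoc_of% hq₀]
      · rw [Category.assoc, Category.assoc, hiP2, hiQ2, Category.comp_id, reassoc_of% hp₀]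
  let pt : ↥(Spec (CommRingCat.of k)) := IsLocalRing.closedPoint k
  obtain ⟨W, hxW, hWp, hWc, hWl⟩ := exists_component v hv (sa (p₀ pt))
  have : ConnectedSpace P := GeometricallyConnected.connectedSpace_of_subsingleton pP
  obtain ⟨sa', hsa'⟩ := hWl sa (p₀ pt) rfl
  obtain ⟨sb', hsb'⟩ := hWl sb (q₀ pt) (by
    rw [← Scheme.Hom.comp_apply, ← Scheme.Hom.comp_apply, hsab])
  let Y : FEt.Cat (pullback pP pQ) := MorphismProperty.Over.mk ⊤ (W.ι ≫ v) hWp
  have hYc : ConnectedSpace Y.left := hWc
  have hfib : ∀ (Ω : Type u) [Field Ω] [IsAlgClosed Ω] (s : Spec (CommRingCat.of Ω) ⟶ Q),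
      ConnectedSpace ↥(pullback (pullback.snd pP pQ) s) ∧
        IsReduced (pullback (pullback.snd pP pQ) s) := fun Ω _ _ s =>
    ⟨pullback_of_geometrically GeometricallyConnected.geometrically_connectedSpace Ω s,
      pullback_of_geometrically GeometricallyReduced.geometrically_isReduced Ω s⟩
  have hFP : LocallyOfFinitePresentation pP :=
    LocallyOfFinitePresentation.iff_locallyOfFiniteType.2 inferInstance
  obtain ⟨T, ⟨e⟩⟩ := hmid (pullback.snd pP pQ) hfib Y k q₀
    (pullback.fst _ _ ≫ pullback.fst _ _ ≫ sa') (by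
      change (pullback.fst _ _ ≫ pullback.fst _ _ ≫ sa') ≫ W.ι ≫ v = _
      simp only [Category.assoc, reassoc_of% hsa', hsa2]
      apply pullback.hom_ext
      · simp only [Category.assoc, hiP1, Category.comp_id]
      · have h1 : pullback.fst (pullback.snd pP pQ) q₀ ≫ pullback.fst pP pQ ≫ pP =
            pullback.snd (pullback.snd pP pQ) q₀ := by
          rw [pullback.condition, pullback.condition_assoc, hq₀, Category.comp_id]
        simp only [Category.assoc, hiP2]
        rw [reassoc_of% h1, ← pullback.condition])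
  have he : e.hom.left ≫ W.ι ≫ v = pullback.snd T.hom (pullback.snd pP pQ) :=
    MorphismProperty.Over.w e.hom
  have hei : e.inv.left ≫ pullback.snd T.hom (pullback.snd pP pQ) = W.ι ≫ v :=
    MorphismProperty.Over.w e.inv
  have hQ : Surjective (pullback.snd pP pQ) := inferInstance
  have hTc : ConnectedSpace T.left := by
    have h1 : Surjective (e.inv.left ≫ pullback.fst T.hom (pullback.snd pP pQ)) := by
      have : IsIso e.inv.left := inferInstance
      infer_instance
    exact h1.surj.connectedSpace (Scheme.Hom.continuous _)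
  have hρ : (sb' ≫ e.inv.left ≫ pullback.fst T.hom (pullback.snd pP pQ)) ≫ T.hom = 𝟙 Q := by
    simp only [Category.assoc]
    rw [pullback.condition, reassoc_of% hei, reassoc_of% hsb', reassoc_of% hsb2, hiQ2]
  have hT : IsIso T.hom :=
    Groth.Agent.Pi1A.SteinCover.isIso_of_section (P := T.left) (Z := Q) T.hom T.prop _ hρ
  have hWv : IsIso (W.ι ≫ v) := by
    rw [← hei]
    have : IsIso e.inv.left := inferInstance
    infer_instance
  refine ⟨inv (W.ι ≫ v) ≫ W.ι ≫ pullback.fst f h, ?_⟩
  rw [Category.assoc, Category.assoc, pullback.condition]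
  change inv (W.ι ≫ v) ≫ W.ι ≫ v ≫ h = h
  rw [← Category.assoc W.ι v h, IsIso.inv_hom_id_assoc]

end Groth.Agent.Pi1.H399.ProdLift
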